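import Mathlib
import Cfsg.Agent.Lib.Helper14.DG33.Defs

/-!
# Project DG33 (S3670): package [DEGSUM]
-/

set_option autoImplicit false

namespace Cfsg.Agent.Lib.Helper90.DG33

open Cfsg
open Cfsg.Agent.Lib.Helper14.DG33
open scoped ComplexConjugate

universe u

/-- `lam b ^ 8 = 1` for every `b ∈ B`. -/
theorem lam_pow_eight {G : Type u} [Group G] {B P Z : Subgroup G} {t w : G}
    (hD : Datum G B P Z t w) {lam : B →* ℂˣ} (hlam : LamSpec B P t lam) (b : B) :
    ((lam b : ℂˣ) : ℂ) ^ 8 = 1 := by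
  obtain ⟨k, hk⟩ := hD.raw.BPT b b.2
  have h1 : lam (b * ⟨t, hD.raw.tB⟩ ^ k) = 1 := (hlam.ker _).mpr (by simpa using hk)
  have hprim := hlam.prim hD.raw.tB
  have ht8 : (lam ⟨t, hD.raw.tB⟩) ^ 8 = 1 := by
    apply Units.ext
    simpa using hprim.pow_eq_one
  have h2 : lam b = (lam ⟨t, hD.raw.tB⟩ ^ k)⁻¹ := by
    rw [map_mul, map_pow] at h1
    exact eq_inv_of_mul_eq_one_left h1
  have h3 : (lam b) ^ 8 = 1 := by
    rw [h2, inv_pow, ← pow_mul, mul_comm, pow_mul, ht8, one_pow, inv_one]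
  have h4 := congrArg (fun u : ℂˣ => (u : ℂ)) h3
  simpa using h4

open Classical in
/-- The pointwise identity `∑_j λ^j + 8 ψ₈ = 72 · 1_Z`. -/
theorem degsum_pointwise {G : Type u} [Group G] {B P Z : Subgroup G} {t w : G}
    (hD : Datum G B P Z t w) {lam : B →* ℂˣ} (hlam : LamSpec B P t lam) (b : B) :
    (∑ j ∈ Finset.range 8, lamJ lam j b) + 8 * psi8 B P Z b =
      if (b : G) ∈ Z then 72 else 0 := by
  have h8 := lam_pow_eight hD hlam b
  by_cases hP : (b : G) ∈ P
  · have hl : lam b = 1 := (hlam.ker b).mpr hP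
    have hsum : ∑ j ∈ Finset.range 8, lamJ lam j b = 8 := by simp [lamJ, hl]
    by_cases hZ : (b : G) ∈ Z
    · rw [hsum, if_pos hZ]
      simp only [psi8, if_pos hZ]
      norm_num
    · rw [hsum, if_neg hZ]
      simp only [psi8, if_neg hZ, if_pos hP]
      norm_num
  · have hZ : (b : G) ∉ Z := fun h => hP (hD.raw.ZP h)
    have hl : ((lam b : ℂˣ) : ℂ) ≠ 1 := by
      intro h
      apply hP
      apply (hlam.ker b).mp
      exact Units.ext (by simpa using h)
    have hsum : ∑ j ∈ Finset.range 8, lamJ lam j b = 0 := by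
      have hg := geom_sum_eq hl 8
      simp only [lamJ]
      rw [hg, h8, sub_self, zero_div]
    rw [hsum, if_neg hZ]
    simp only [psi8, if_neg hZ, if_neg hP]
    norm_num

theorem pkgDegSum : PkgDegSum.{u} := by
  intro G _ _ B P Z _ t w hD lam hlam θ
  classical
  have hcardB : (Nat.card B : ℂ) = 216 := by
    rw [hD.cardB]
    norm_num
  unfold classInner
  have key : (∑ j ∈ Finset.range 8, (Nat.card B : ℂ)⁻¹ * ∑ g : B, lamJ lam j g * conj (θ g)) +
      8 * ((Nat.card B : ℂ)⁻¹ * ∑ g : B, psi8 B P Z g * conj (θ g)) =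
      (Nat.card B : ℂ)⁻¹ * ∑ g : B,
        ((∑ j ∈ Finset.range 8, lamJ lam j g) + 8 * psi8 B P Z g) * conj (θ g) := by
    rw [← Finset.mul_sum, Finset.sum_comm, ← mul_assoc, mul_comm 8, mul_assoc, ← mul_add,
      Finset.mul_sum, ← Finset.sum_add_distrib]
    congr 1
    apply Finset.sum_congr rfl
    intro g _
    rw [add_mul, Finset.sum_mul]
    ring
  rw [key, hcardB, Finset.mul_sum, Finset.mul_sum]
  apply Finset.sum_congr rfl
  intro b _
  have hpt := degsum_pointwise hD hlam b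
  by_cases hZ : (b : G) ∈ Z
  · rw [if_pos hZ] at hpt
    rw [hpt]
    simp only [if_pos hZ]
    ring
  · rw [if_neg hZ] at hpt
    rw [hpt]
    simp only [if_neg hZ]
    ring

end Cfsg.Agent.Lib.Helper90.DG33
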